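import Mathlib
import Cfsg.Prelude.Def_Transfer
import Cfsg.Agent.Lib.Compute.PermCert
import Cfsg.Agent.Lib.Compute.BlockIso
import Cfsg.Agent.Lib.PGroup.ExtraMk
import Cfsg.Agent.Lib.PGroup.LargeFz
import Cfsg.Agent.Lib.Compute.J3.CentData

/-!
# A permutation group of degree 80 and order 1920 of shape `2^{1+4}_- : A₅`
-/

set_option autoImplicit false
set_option maxRecDepth 100000

namespace Cfsg.Agent.Lib.Compute.J3.CentSmall

open Cfsg
open Cfsg.Agent.Lib.Compute.PermCert Cfsg.Agent.Lib.Compute.BlockIso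
open Cfsg.Agent.Lib.Compute.J3.CentData
open scoped commutatorElement

/-- The shape of the group. -/
def Shape (C : Type*) [Group C] : Prop :=
  ∃ (Q : Subgroup C) (_ : Q.Normal), Cfsg.IsExtraspecial 2 Q ∧ Nat.card Q = 32 ∧
    (∀ E : Subgroup Q, Cfsg.IsElementaryAbelian 2 E → Nat.card E ≤ 2 ^ 2) ∧
    (∃ H : Subgroup C, Q.IsComplement' H) ∧ Nonempty (C ⧸ Q ≃* ↥(alternatingGroup (Fin 5)))

/-! ### Transport -/

theorem Shape.congr {C D : Type*} [Group C] [Group D] [Finite C] (e : C ≃* D) (h : Shape C) : Shape D := by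
  obtain ⟨Q, hQ, h1, h2, h3, ⟨H, hH⟩, ⟨a⟩⟩ := h
  have eQ : Q ≃* Q.map e.toMonoidHom := e.subgroupMap Q
  have hfin : Finite D := Finite.of_equiv C e.toEquiv
  haveI hQ' : (Q.map e.toMonoidHom).Normal := hQ.map e.toMonoidHom e.surjective
  refine ⟨Q.map e.toMonoidHom, hQ', ?_, ?_, ?_, ⟨H.map e.toMonoidHom, ?_⟩, ?_⟩
  · exact Cfsg.Agent.Lib.PGroup.LargeFz.isExtraspecial_of_equiv eQ h1
  · rw [← h2]
    exact (Nat.card_congr eQ.toEquiv).symm
  · intro E hE
    let E' : Subgroup Q := E.comap eQ.toMonoidHom
    have hcard : Nat.card E' = Nat.card E := by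
      apply Nat.card_congr
      exact (eQ.subgroupMap E').toEquiv.trans (by
        have : E'.map eQ.toMonoidHom = E := Subgroup.map_comap_eq_self_of_surjective eQ.surjective E
        exact (MulEquiv.subgroupCongr this).toEquiv)
    rw [← hcard]
    apply h3
    refine ⟨⟨⟨fun x y => ?_⟩⟩, fun x hx => ?_⟩
    · apply Subtype.ext
      apply eQ.injective
      have := hE.1.is_comm.comm (⟨eQ x.1, x.2⟩ : E) ⟨eQ y.1, y.2⟩
      have h4 : eQ x.1 * eQ y.1 = eQ y.1 * eQ x.1 := congrArg Subtype.val this
      show eQ (x.1 * y.1) = eQ (y.1 * x.1)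
      rw [map_mul, map_mul]
      exact h4
    · apply eQ.injective
      have h4 := hE.2 (eQ x) hx
      rw [map_pow, map_one]
      exact h4
  · apply Subgroup.isComplement'_of_card_mul_and_disjoint
    · have c1 : Nat.card (Q.map e.toMonoidHom) = Nat.card Q := Subgroup.card_map_of_injective e.injective
      have c2 : Nat.card (H.map e.toMonoidHom) = Nat.card H := Subgroup.card_map_of_injective e.injective
      rw [c1, c2, hH.card_mul_card]
      exact Nat.card_congr e.toEquiv
    · rw [Subgroup.disjoint_def]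
      rintro _ ⟨x, hx, rfl⟩ ⟨y, hy, hxy⟩
      have : y = x := e.injective hxy
      subst this
      have h5 := Subgroup.disjoint_def.mp hH.disjoint hx hy
      subst h5
      exact map_one _
  · exact ⟨(QuotientGroup.congr Q (Q.map e.toMonoidHom) e rfl).symm.trans a⟩

/-! ### The table of the normal subgroup -/

/-- The multiplication table. -/
def T (i j : Fin 32) : Fin 32 := ⟨Nat.mod (get 5 31 tT (Nat.add (Nat.mul 32 i) j)) 32, Nat.mod_lt _ (by norm_num)⟩

theorem t_center : ∀ i : Fin 32, i ≠ 0 → i ≠ 1 → ∃ j, T i j ≠ T j i := by decide +kernel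
theorem t_z : ∀ j : Fin 32, T 1 j = T j 1 := by decide +kernel
theorem t_comm : ∀ i j : Fin 32, T i j = T j i ∨ T i j = T 1 (T j i) := by decide +kernel
theorem t_sq : ∀ i : Fin 32, T i i = 0 ∨ T i i = 1 := by decide +kernel
theorem t_ex : ∃ i j : Fin 32, T i j ≠ T j i := by decide +kernel
theorem t_e8 : ∀ i j : Fin 32, T i i = 0 → T j j = 0 → T i j = T j i → i = 0 ∨ i = 1 ∨ j = 0 ∨ j = 1 ∨ j = i ∨ j = T i 1 := by
  decide +kernel

theorem table_facts {X : Type*} [Group X] [Finite X] (f : Fin 32 → X) (hmul : ∀ i j, f i * f j = f (T i j))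
    (hone : f 0 = 1) (hbij : Function.Bijective f) :
    Cfsg.IsExtraspecial 2 X ∧ ∀ E : Subgroup X, Cfsg.IsElementaryAbelian 2 E → Nat.card E ≤ 2 ^ 2 := by
  classical
  have hcard : Nat.card X = 32 := by
    rw [← Nat.card_congr (Equiv.ofBijective f hbij)]
    simp
  obtain ⟨hinj, hsurj⟩ := hbij
  have hz1 : f 1 ≠ 1 := by
    rw [← hone]
    exact fun h => absurd (hinj h) (by decide)
  have hcomm_eq : ∀ x y : X, x * y = y * x → ⁅x, y⁆ = 1 := by
    intro x y h
    rw [commutatorElement_def, h]
    group
  have hzcen : ∀ y : X, f 1 * y = y * f 1 := by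
    intro y
    obtain ⟨j, rfl⟩ := hsurj y
    rw [hmul, hmul, t_z]
  refine ⟨Cfsg.Agent.Lib.PGroup.ExtraMk.isExtraspecial_of (IsPGroup.of_card (n := 5) (by rw [hcard]; norm_num))
    (f 1) hz1 ?_ ?_ ?_ ?_, ?_⟩
  · intro x
    constructor
    · intro hx
      obtain ⟨i, rfl⟩ := hsurj x
      by_contra hcon
      push Not at hcon
      have h0 : i ≠ 0 := by
        rintro rfl
        exact hcon.1 hone
      have h1 : i ≠ 1 := by
        rintro rfl
        exact hcon.2 rfl
      obtain ⟨j, hj⟩ := t_center i h0 h1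
      apply hj
      apply hinj
      rw [← hmul, ← hmul]
      exact (Subgroup.mem_center_iff.mp hx (f j)).symm
    · rintro (rfl | rfl)
      · exact Subgroup.one_mem _
      · exact Subgroup.mem_center_iff.mpr fun g => (hzcen g).symm
  · intro x y
    obtain ⟨i, rfl⟩ := hsurj x
    obtain ⟨j, rfl⟩ := hsurj y
    rcases t_comm i j with h | h
    · left
      apply hcomm_eq
      rw [hmul, hmul, h]
    · right
      have h2 : f i * f j = f 1 * (f j * f i) := by
        rw [hmul, hmul, hmul, h]
      rw [commutatorElement_def, h2]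
      group
  · intro x
    obtain ⟨i, rfl⟩ := hsurj x
    rcases t_sq i with h | h
    · left
      rw [pow_two, hmul, h, hone]
    · right
      rw [pow_two, hmul, h]
  · obtain ⟨i, j, hij⟩ := t_ex
    refine ⟨f i, f j, ?_⟩
    rcases t_comm i j with h | h
    · exact absurd h hij
    · have h2 : f i * f j = f 1 * (f j * f i) := by
        rw [hmul, hmul, hmul, h]
      rw [commutatorElement_def, h2]
      group
  · intro E hE
    have hcomm : ∀ x ∈ E, ∀ y ∈ E, x * y = y * x := by
      intro x hx y hy
      have := hE.1.is_comm.comm (⟨x, hx⟩ : E) ⟨y, hy⟩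
      exact congrArg Subtype.val this
    have hsq : ∀ x ∈ E, x ^ 2 = 1 := hE.2
    have hidx : ∀ i, f i ∈ E → T i i = 0 := by
      intro i hi
      apply hinj
      rw [← hmul, ← pow_two, hsq _ hi, hone]
    by_cases hex : ∃ x ∈ E, x ≠ 1 ∧ x ≠ f 1
    · obtain ⟨x, hx, hx1, hxz⟩ := hex
      obtain ⟨i, rfl⟩ := hsurj x
      have hi0 : i ≠ 0 := by
        rintro rfl
        exact hx1 hone
      have hi1 : i ≠ 1 := by
        rintro rfl
        exact hxz rfl
      have hsub : (E : Set X) ⊆ (({1, f 1, f i, f (T i 1)} : Finset X) : Set X) := by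
        intro y hy
        obtain ⟨j, rfl⟩ := hsurj y
        have h3 : T i j = T j i := by
          apply hinj
          rw [← hmul, ← hmul]
          exact hcomm _ hx _ hy
        have h4 := t_e8 i j (hidx i hx) (hidx j hy) h3
        simp only [Finset.coe_insert, Finset.coe_singleton, Set.mem_insert_iff, Set.mem_singleton_iff]
        rcases h4 with h | h | h | h | h | h
        · exact absurd h hi0
        · exact absurd h hi1
        · left; rw [h, hone]
        · right; left; rw [h]
        · right; right; left; rw [h]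
        · right; right; right; rw [h]
      have h5 : Nat.card E = (E : Set X).ncard := Nat.card_coe_set_eq _
      rw [h5]
      calc (E : Set X).ncard ≤ ((({1, f 1, f i, f (T i 1)} : Finset X) : Set X)).ncard :=
            Set.ncard_le_ncard hsub (Finset.finite_toSet _)
        _ = ({1, f 1, f i, f (T i 1)} : Finset X).card := Set.ncard_coe_finset _
        _ ≤ 4 := Finset.card_le_four
        _ = 2 ^ 2 := by norm_num
    · push Not at hex
      have hsub : (E : Set X) ⊆ (({1, f 1} : Finset X) : Set X) := by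
        intro y hy
        simp only [Finset.coe_insert, Finset.coe_singleton, Set.mem_insert_iff, Set.mem_singleton_iff]
        by_cases h1 : y = 1
        · left; exact h1
        · right; exact hex y hy h1
      have h5 : Nat.card E = (E : Set X).ncard := Nat.card_coe_set_eq _
      rw [h5]
      calc (E : Set X).ncard ≤ ((({1, f 1} : Finset X) : Set X)).ncard :=
            Set.ncard_le_ncard hsub (Finset.finite_toSet _)
        _ = ({1, f 1} : Finset X).card := Set.ncard_coe_finset _
        _ ≤ 2 := Finset.card_le_two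
        _ ≤ 2 ^ 2 := by norm_num


/-! ### A variant of the label homomorphism -/

theorem range_of_label' {P Ω Y : Type*} [Group P] [Finite P] (φ : P →* Equiv.Perm Ω) (l : Ω → Option Y)
    (hsurj : ∀ y, ∃ i, l i = some y) (S : Set P) (T : Set (Equiv.Perm Y))
    (h1 : ∀ a ∈ S, ∃ p ∈ T, ∀ i y, l i = some y → l (φ a i) = some (p y))
    (h2 : ∀ p ∈ T, ∃ a ∈ S, ∀ i y, l i = some y → l (φ a i) = some (p y)) :
    ∃ ψ : Subgroup.closure S →* Equiv.Perm Y, ψ.range = Subgroup.closure T ∧
      ∀ (a : Subgroup.closure S) (i : Ω) (y : Y), l i = some y → l (φ a.1 i) = some (ψ a y) := by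
  let S' : Set (Subgroup.closure S) := (↑) ⁻¹' S
  have hS' : Subgroup.closure S' = ⊤ := Subgroup.closure_closure_coe_preimage
  obtain ⟨ψ, hψ⟩ := hom_of_label_gen (φ.comp (Subgroup.closure S).subtype) l hsurj S' hS' (by
    intro a ha y
    obtain ⟨p, -, hp⟩ := h1 a.1 ha
    exact ⟨p y, fun i hi => hp i y hi⟩)
  have huniq : ∀ (a : Subgroup.closure S) (p : Equiv.Perm Y),
      (∀ i y, l i = some y → l (φ a.1 i) = some (p y)) → ψ a = p := by
    intro a p hp
    ext y
    obtain ⟨i, hi⟩ := hsurj y
    have h3 := hψ a i y hi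
    have h4 := hp i y hi
    have h5 : φ a.1 i = (φ.comp (Subgroup.closure S).subtype) a i := rfl
    rw [h5, h3] at h4
    rw [Option.some.inj h4]
  refine ⟨ψ, ?_, hψ⟩
  rw [MonoidHom.range_eq_map, ← hS', MonoidHom.map_closure]
  congr 1
  ext p
  constructor
  · rintro ⟨a, ha, rfl⟩
    obtain ⟨p, hp, hp2⟩ := h1 a.1 ha
    rw [huniq a p hp2]
    exact hp
  · intro hp
    obtain ⟨a, ha, ha2⟩ := h2 p hp
    exact ⟨⟨a, Subgroup.subset_closure ha⟩, ha, huniq _ p ha2⟩

theorem genGroup_pair {w m n : ℕ} (a b : Elt) :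
    genGroup w m n [a, b] = Subgroup.closure {permOf w m n a, permOf w m n b} := by
  apply genGroup_eq
  intro x
  constructor
  · rintro (rfl | h)
    · exact ⟨a, by simp, rfl⟩
    · rw [Set.mem_singleton_iff] at h
      exact ⟨b, by simp, h.symm⟩
  · rintro ⟨e, he, rfl⟩
    rcases List.mem_cons.mp he with rfl | he
    · left; rfl
    · rcases List.mem_cons.mp he with rfl | he
      · right; rfl
      · exact absurd he (by simp)

/-! ### The group -/

theorem valid_e1 : validB 7 127 80 e1 = true := by decide +kernel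
theorem valid_e2 : validB 7 127 80 e2 = true := by decide +kernel
theorem valid_h1 : validB 7 127 80 h1 = true := by decide +kernel
theorem valid_h2 : validB 7 127 80 h2 = true := by decide +kernel
theorem valid_s1 : validB 3 7 5 s1E = true := by decide +kernel
theorem valid_s2 : validB 3 7 5 s2E = true := by decide +kernel

/-- The first generator. -/
abbrev p1 : Equiv.Perm (Fin 80) := permOf 7 127 80 e1
/-- The second generator. -/
abbrev p2 : Equiv.Perm (Fin 80) := permOf 7 127 80 e2
/-- The first generator of the complement. -/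
abbrev ph1 : Equiv.Perm (Fin 80) := permOf 7 127 80 h1
/-- The second generator of the complement. -/
abbrev ph2 : Equiv.Perm (Fin 80) := permOf 7 127 80 h2
/-- The first generator of the quotient. -/
abbrev s1 : Equiv.Perm (Fin 5) := permOf 3 7 5 s1E
/-- The second generator of the quotient. -/
abbrev s2 : Equiv.Perm (Fin 5) := permOf 3 7 5 s2E

/-- The group. -/
abbrev CC : Subgroup (Equiv.Perm (Fin 80)) := Subgroup.closure {p1, p2}

theorem chainC_ok : chainCheck 7 127 80 chainC = true := by decide +kernel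
theorem chainH_ok : chainCheck 7 127 80 chainH = true := by decide +kernel
theorem chainA_ok : chainCheck 3 7 5 chainA = true := by decide +kernel
theorem chainC_ord : chainOrder chainC = 1920 := by decide +kernel
theorem chainH_ord : chainOrder chainH = 60 := by decide +kernel
theorem chainA_ord : chainOrder chainA = 60 := by decide +kernel

theorem chainC_eq : chainGroup 7 127 80 chainC = CC := by
  show genGroup 7 127 80 (nextGens chainC) = CC
  have : nextGens chainC = [e1, e2] := rfl
  rw [this, genGroup_pair]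

theorem chainH_eq : chainGroup 7 127 80 chainH = Subgroup.closure {ph1, ph2} := by
  show genGroup 7 127 80 (nextGens chainH) = _
  have : nextGens chainH = [h1, h2] := rfl
  rw [this, genGroup_pair]

theorem chainA_eq : chainGroup 3 7 5 chainA = Subgroup.closure {s1, s2} := by
  show genGroup 3 7 5 (nextGens chainA) = _
  have : nextGens chainA = [s1E, s2E] := rfl
  rw [this, genGroup_pair]

theorem card_CC : Nat.card CC = 1920 := by
  rw [← chainC_eq, chain_card chainC_ok, chainC_ord]

theorem card_H : Nat.card (Subgroup.closure {ph1, ph2} : Subgroup (Equiv.Perm (Fin 80))) = 60 := by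
  rw [← chainH_eq, chain_card chainH_ok, chainH_ord]

theorem card_A : Nat.card (Subgroup.closure {s1, s2} : Subgroup (Equiv.Perm (Fin 5))) = 60 := by
  rw [← chainA_eq, chain_card chainA_ok, chainA_ord]

theorem s1_even : Equiv.Perm.sign s1 = 1 := by decide +kernel
theorem s2_even : Equiv.Perm.sign s2 = 1 := by decide +kernel

theorem card_alt : Nat.card (alternatingGroup (Fin 5)) = 60 := by
  have h := two_mul_nat_card_alternatingGroup (α := Fin 5)
  have h2 : Nat.card (Equiv.Perm (Fin 5)) = 120 := by
    rw [Nat.card_eq_fintype_card, Fintype.card_perm, Fintype.card_fin]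
    rfl
  omega

theorem closure_eq_alt : Subgroup.closure {s1, s2} = alternatingGroup (Fin 5) := by
  apply Subgroup.eq_of_le_of_card_ge
  · rw [Subgroup.closure_le]
    rintro _ (rfl | h)
    · exact Equiv.Perm.mem_alternatingGroup.mpr s1_even
    · rw [Set.mem_singleton_iff] at h
      rw [h]
      exact Equiv.Perm.mem_alternatingGroup.mpr s2_even
  · rw [card_A, card_alt]

/-! ### The blocks -/

/-- The block of a point. -/
def blN (a : ℕ) : ℕ := Nat.mod (get 3 7 blT a) 5

/-- The block of a point. -/
def bl (i : Fin 80) : Fin 5 := ⟨blN i, Nat.mod_lt _ (by norm_num)⟩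

/-- The check of compatibility with the blocks. -/
def blChk (e s : Elt) : Bool :=
  allB (fun a => Nat.beq (blN (get 7 127 e.f a)) (get 3 7 s.f (blN a))) 80

theorem bl_of_chk {e s : Elt} (he : validB 7 127 80 e = true) (hs : validB 3 7 5 s = true) (h : blChk e s = true)
    (i : Fin 80) : bl (permOf 7 127 80 e i) = permOf 3 7 5 s (bl i) := by
  have h1 := (allB_iff _ _).mp h i i.2
  rw [Nat.beq_eq] at h1
  apply Fin.ext
  show blN (permOf 7 127 80 e i : Fin 80) = ((permOf 3 7 5 s (bl i) : Fin 5) : ℕ)
  rw [permOf_apply he, permOf_apply hs]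
  exact h1

theorem chk_e1 : blChk e1 s1E = true := by decide +kernel
theorem chk_e2 : blChk e2 s2E = true := by decide +kernel
theorem chk_h1 : blChk h1 s1E = true := by decide +kernel
theorem chk_h2 : blChk h2 s2E = true := by decide +kernel

theorem bl_surj : ∀ y : Fin 5, ∃ i : Fin 80, bl i = y := by decide +kernel

theorem exists_psi : ∃ ψ : CC →* Equiv.Perm (Fin 5), ψ.range = Subgroup.closure {s1, s2} ∧
    ∀ (a : CC) (i : Fin 80), bl (a.1 i) = ψ a (bl i) := by
  obtain ⟨ψ, hr, hs⟩ := range_of_label' (MonoidHom.id (Equiv.Perm (Fin 80))) (fun i => some (bl i))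
    (fun y => by
      obtain ⟨i, hi⟩ := bl_surj y
      exact ⟨i, by rw [hi]⟩) {p1, p2} {s1, s2}
    (by
      rintro a (rfl | h)
      · exact ⟨s1, Or.inl rfl, fun i y hy => by
          rw [← Option.some.inj hy]
          exact congrArg some (bl_of_chk valid_e1 valid_s1 chk_e1 i)⟩
      · rw [Set.mem_singleton_iff] at h
        subst h
        exact ⟨s2, Or.inr rfl, fun i y hy => by
          rw [← Option.some.inj hy]
          exact congrArg some (bl_of_chk valid_e2 valid_s2 chk_e2 i)⟩)
    (by
      rintro p (rfl | h)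
      · exact ⟨p1, Or.inl rfl, fun i y hy => by
          rw [← Option.some.inj hy]
          exact congrArg some (bl_of_chk valid_e1 valid_s1 chk_e1 i)⟩
      · rw [Set.mem_singleton_iff] at h
        subst h
        exact ⟨p2, Or.inr rfl, fun i y hy => by
          rw [← Option.some.inj hy]
          exact congrArg some (bl_of_chk valid_e2 valid_s2 chk_e2 i)⟩)
  exact ⟨ψ, hr, fun a i => Option.some.inj (hs a i _ rfl)⟩

/-! ### The elements of the normal subgroup -/

/-- An element of the normal subgroup. -/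
def qE (i : ℕ) : Elt := ⟨get 560 M560 qFT i, get 560 M560 qGT i⟩

/-- The table on numbers. -/
def Tn (i j : ℕ) : ℕ := Nat.mod (get 5 31 tT (Nat.add (Nat.mul 32 i) j)) 32

theorem q_valid : allB (fun i => validB 7 127 80 (qE i)) 32 = true := by decide +kernel
theorem q_sift : allB (fun i => sift 7 127 80 chainC (get 7 127 (qE i).f)) 32 = true := by decide +kernel
theorem q_bl : allB (fun i => allB (fun a => Nat.beq (blN (get 7 127 (qE i).f a)) (blN a)) 80) 32 = true := by
  decide +kernel
theorem q_mul : allB (fun i => allB (fun j => allB (fun a =>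
    Nat.beq (get 7 127 (qE i).f (get 7 127 (qE j).f a)) (get 7 127 (qE (Tn i j)).f a)) 80) 32) 32 = true := by
  decide +kernel
theorem q_one : allB (fun a => Nat.beq (get 7 127 (qE 0).f a) a) 80 = true := by decide +kernel
theorem q_inj : ∀ i j : Fin 32, get 7 127 (qE i).f b0 = get 7 127 (qE j).f b0 →
    get 7 127 (qE i).f b1 = get 7 127 (qE j).f b1 → i = j := by decide +kernel
theorem b0_lt : b0 < 80 := by decide +kernel
theorem b1_lt : b1 < 80 := by decide +kernel

/-- An element of the normal subgroup. -/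
abbrev qP (i : ℕ) : Equiv.Perm (Fin 80) := permOf 7 127 80 (qE i)

theorem qP_valid (i : Fin 32) : validB 7 127 80 (qE i) = true := (allB_iff _ _).mp q_valid i i.2

theorem qP_apply (i : Fin 32) (a : Fin 80) : (qP i a : ℕ) = get 7 127 (qE i).f a := permOf_apply (qP_valid i) a

theorem qP_mem (i : Fin 32) : qP i ∈ CC := by
  rw [← chainC_eq]
  exact sift_sound chainC_ok _ _ (fun a => (qP_apply i a).symm) ((allB_iff _ _).mp q_sift i i.2)

theorem qP_mul (i j : Fin 32) : qP i * qP j = qP (T i j) := by
  ext a
  have h := (allB_iff _ _).mp ((allB_iff _ _).mp ((allB_iff _ _).mp q_mul i i.2) j j.2) a a.2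
  rw [Nat.beq_eq] at h
  rw [Equiv.Perm.mul_apply, qP_apply, qP_apply, qP_apply]
  exact h

theorem qP_one : qP (0 : Fin 32) = 1 := by
  ext a
  have h := (allB_iff _ _).mp q_one a a.2
  rw [Nat.beq_eq] at h
  rw [qP_apply]
  exact h

theorem qP_inj {i j : Fin 32} (h : qP i = qP j) : i = j := by
  apply q_inj
  · rw [← qP_apply i ⟨b0, b0_lt⟩, h, qP_apply]
  · rw [← qP_apply i ⟨b1, b1_lt⟩, h, qP_apply]

theorem qP_bl (i : Fin 32) (a : Fin 80) : bl (qP i a) = bl a := by
  have h := (allB_iff _ _).mp ((allB_iff _ _).mp q_bl i i.2) a a.2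
  rw [Nat.beq_eq] at h
  apply Fin.ext
  show blN (qP i a : Fin 80) = blN a
  rw [qP_apply]
  exact h

/-- The shape of the group of degree 80. -/
theorem shape_CC : Shape CC := by
  classical
  obtain ⟨ψ, hr, hs⟩ := exists_psi
  have hrange : Nat.card ψ.range = 60 := by rw [hr, card_A]
  have hQ : Nat.card ψ.ker = 32 := by
    have h1 := Subgroup.card_mul_index ψ.ker
    rw [Subgroup.index_ker, hrange, card_CC] at h1
    omega
  let f : Fin 32 → ψ.ker := fun i => ⟨⟨qP i, qP_mem i⟩, by
    rw [MonoidHom.mem_ker]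
    ext y
    obtain ⟨a, rfl⟩ := bl_surj y
    have h1 := hs ⟨qP i, qP_mem i⟩ a
    rw [← h1]
    exact congrArg _ (qP_bl i a)⟩
  have hmul : ∀ i j, f i * f j = f (T i j) := fun i j => Subtype.ext (Subtype.ext (qP_mul i j))
  have hone : f 0 = 1 := Subtype.ext (Subtype.ext qP_one)
  have hinj : Function.Injective f := fun i j h => qP_inj (congrArg (fun x : ψ.ker => ((x : CC) : Equiv.Perm (Fin 80))) h)
  have hbij : Function.Bijective f :=
    hinj.bijective_of_nat_card_le (by rw [hQ]; simp)
  obtain ⟨hE, hE8⟩ := table_facts f hmul hone hbij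
  refine ⟨ψ.ker, inferInstance, hE, hQ, hE8, ?_, ?_⟩
  · -- the complement
    have hle : Subgroup.closure {ph1, ph2} ≤ CC := by
      rw [Subgroup.closure_le]
      rintro _ (rfl | h)
      · rw [SetLike.mem_coe, ← chainC_eq]
        refine sift_sound chainC_ok _ _ (fun a => (permOf_apply valid_h1 a).symm) (by decide +kernel)
      · rw [Set.mem_singleton_iff] at h
        subst h
        rw [SetLike.mem_coe, ← chainC_eq]
        refine sift_sound chainC_ok _ _ (fun a => (permOf_apply valid_h2 a).symm) (by decide +kernel)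
    let H0 : Subgroup CC := (Subgroup.closure {ph1, ph2}).subgroupOf CC
    have hH0 : Nat.card H0 = 60 := by
      rw [← card_H]
      exact Nat.card_congr (Subgroup.subgroupOfEquivOfLe hle).toEquiv
    have hm1 : ph1 ∈ (Subgroup.closure {ph1, ph2} : Subgroup (Equiv.Perm (Fin 80))) :=
      Subgroup.subset_closure (Or.inl rfl)
    have hm2 : ph2 ∈ (Subgroup.closure {ph1, ph2} : Subgroup (Equiv.Perm (Fin 80))) :=
      Subgroup.subset_closure (Or.inr rfl)
    let η : H0 →* Equiv.Perm (Fin 5) := ψ.comp H0.subtype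
    have hη1 : η ⟨⟨ph1, hle hm1⟩, Subgroup.mem_subgroupOf.mpr hm1⟩ = s1 := by
      ext y
      obtain ⟨a, rfl⟩ := bl_surj y
      have h1 := hs ⟨ph1, hle hm1⟩ a
      show ((ψ ⟨ph1, hle hm1⟩) (bl a) : Fin 5).1 = _
      rw [← h1]
      exact congrArg _ (bl_of_chk valid_h1 valid_s1 chk_h1 a)
    have hη2 : η ⟨⟨ph2, hle hm2⟩, Subgroup.mem_subgroupOf.mpr hm2⟩ = s2 := by
      ext y
      obtain ⟨a, rfl⟩ := bl_surj y
      have h1 := hs ⟨ph2, hle hm2⟩ a
      show ((ψ ⟨ph2, hle hm2⟩) (bl a) : Fin 5).1 = _
      rw [← h1]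
      exact congrArg _ (bl_of_chk valid_h2 valid_s2 chk_h2 a)
    have hηr : Subgroup.closure {s1, s2} ≤ η.range := by
      rw [Subgroup.closure_le]
      rintro _ (rfl | h)
      · exact ⟨_, hη1⟩
      · rw [Set.mem_singleton_iff] at h
        subst h
        exact ⟨_, hη2⟩
    have hηinj : Function.Injective η := by
      have h1 : Nat.card η.range ≤ Nat.card H0 :=
        Nat.card_le_card_of_surjective η.rangeRestrict η.rangeRestrict_surjective
      have h2 : Nat.card (Subgroup.closure {s1, s2} : Subgroup (Equiv.Perm (Fin 5))) ≤ Nat.card η.range :=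
        Subgroup.card_le_of_le hηr
      rw [card_A] at h2
      have h3 : Function.Injective η.rangeRestrict :=
        (Function.Surjective.bijective_of_nat_card_le η.rangeRestrict_surjective (by omega)).1
      exact fun a b hab => h3 (Subtype.ext hab)
    refine ⟨H0, Subgroup.isComplement'_of_card_mul_and_disjoint ?_ ?_⟩
    · rw [hQ, hH0, card_CC]
    · rw [Subgroup.disjoint_def]
      intro x hx hx2
      have h1 : η ⟨x, hx2⟩ = η 1 := by
        rw [map_one]
        exact MonoidHom.mem_ker.mp hx
      have h2 := hηinj h1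
      exact congrArg Subtype.val h2
  · have e1 := QuotientGroup.quotientKerEquivRange ψ
    have e2 : ψ.range = alternatingGroup (Fin 5) := by rw [hr, closure_eq_alt]
    exact ⟨e1.trans (MulEquiv.subgroupCongr e2)⟩

end Cfsg.Agent.Lib.Compute.J3.CentSmall
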