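import Mathlib
import Cfsg.Agent.Lib.Compute.J3.OutThm
import Cfsg.Agent.Lib.Compute.J3.CentSmall
import Cfsg.Agent.Lib.Compute.J3.CentLab

/-!
# Checks for the centralizer of an involution of `J₃`
-/

set_option autoImplicit false
set_option maxRecDepth 100000

namespace Cfsg.Agent.Lib.Compute.J3.CentChk

open Cfsg Cfsg.Agent.Lib.Compute.PermCert Cfsg.Agent.Lib.Compute.BlockIso
open Cfsg.Agent.Lib.Compute.J3.Data Cfsg.Agent.Lib.Compute.J3.F4Mat Cfsg.Agent.Lib.Compute.J3.InvData
open Cfsg.Agent.Lib.Compute.J3.Check Cfsg.Agent.Lib.Compute.J3.Main Cfsg.Agent.Lib.Compute.J3.PermPart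
open Cfsg.Agent.Lib.Compute.J3.InvCheck Cfsg.Agent.Lib.Compute.J3.OutThm
open Cfsg.Agent.Lib.Compute.J3.CentSmall Cfsg.Agent.Lib.Compute.J3.CentLab

/-! ### Checks -/

noncomputable section

/-- An entry of the tree. -/
def tEnt (i : ℕ) : ℕ := get 24 16777215 treeI i
/-- The parent. -/
def tPar (i : ℕ) : ℕ := Nat.land (tEnt i) 32767
/-- The letter. -/
def tLet (i : ℕ) : ℕ := Nat.land (Nat.shiftRight (tEnt i) 15) 1
/-- The depth. -/
def tDep (i : ℕ) : ℕ := Nat.shiftRight (tEnt i) 16

/-- The check of the tree. -/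
def treeOK (i : ℕ) : Bool :=
  Nat.beq i rootI || (Nat.blt (tPar i) NI && Nat.blt (tDep (tPar i)) (tDep i) &&
    (Nat.beq (tLet i) 0 && Nat.beq (rowG rowIA (tPar i)) i || Nat.beq (tLet i) 1 && Nat.beq (rowG rowIB (tPar i)) i))

end

theorem tree_ok : allB treeOK NI = true := by decide +kernel

theorem sorted_ok : allB (fun i => Nat.blt (invC i) (invC (Nat.succ i))) 26162 = true := by decide +kernel

theorem invC_strict {i j : ℕ} (hij : i < j) (hj : j < NI) : invC i < invC j := by
  have hNI : NI = 26163 := rfl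
  induction j with
  | zero => omega
  | succ k ih =>
    have h1 : Nat.blt (invC k) (invC (Nat.succ k)) = true := (allB_iff _ _).mp sorted_ok k (by omega)
    rw [Nat.blt_eq] at h1
    rcases Nat.lt_succ_iff_lt_or_eq.mp hij with h | h
    · exact lt_trans (ih h (by omega)) h1
    · rw [h]
      exact h1

theorem invC_inj {i j : ℕ} (hi : i < NI) (hj : j < NI) (h : invC i = invC j) : i = j := by
  rcases Nat.lt_trichotomy i j with h1 | h1 | h1
  · exact absurd h (invC_strict h1 hj).ne
  · exact h1
  · exact absurd h.symm (invC_strict h1 hi).ne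

theorem wt_code : wcode wt = invC i0 := by decide +kernel
theorem i0_lt : i0 < NI := by decide +kernel
theorem i0_sq : mm (invC i0) (invC i0) = oneC := by decide +kernel
theorem wt_letters : ∀ l ∈ wt, l < 4 := by decide +kernel
theorem w1_letters : ∀ l ∈ w1, l < 4 := by decide +kernel
theorem w2_letters : ∀ l ∈ w2, l < 4 := by decide +kernel

/-- The label of a point, as a number. -/
def labN (i : ℕ) : ℕ := get 7 127 labT i

/-- The label of a point. -/
def lab (i : Fin 6156) : Option (Fin 80) :=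
  if h : labN i < 80 then some ⟨labN i, h⟩ else none

/-- The check of the action on the labels. -/
def labChk (u : List ℕ) (e : Elt) : Bool :=
  allB (fun i => !(Nat.blt (labN i) 80) || (Nat.beq (labN (wf u i)) (get 7 127 e.f (labN i)) && Nat.blt (labN (wf u i)) 80)) 6156

theorem lab_w1 : labChk w1 CentData.e1 = true := by decide +kernel
theorem lab_w2 : labChk w2 CentData.e2 = true := by decide +kernel
theorem lab_surj_chk : allB (fun y => Nat.blt (get 13 8191 oT y) 6156 && Nat.beq (labN (get 13 8191 oT y)) y) 80 = true := by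
  decide +kernel

theorem comm_wt_w1 : allB (fun i => Nat.beq (wf w1 (wf wt i)) (wf wt (wf w1 i))) 6156 = true := by decide +kernel
theorem comm_wt_w2 : allB (fun i => Nat.beq (wf w2 (wf wt i)) (wf wt (wf w2 i))) 6156 = true := by decide +kernel
theorem wt_sq : allB (fun i => Nat.beq (wf wt (wf wt i)) i) 6156 = true := by decide +kernel
theorem wt_ne : ∃ i, i < 6156 ∧ wf wt i ≠ i := by decide +kernel

theorem comm_of_chk {u v : List ℕ} (h : allB (fun i => Nat.beq (wf u (wf v i)) (wf v (wf u i))) 6156 = true) :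
    wp u * wp v = wp v * wp u := by
  ext i
  have h1 := (allB_iff _ _).mp h i i.2
  rw [Nat.beq_eq] at h1
  rw [Equiv.Perm.mul_apply, Equiv.Perm.mul_apply, ← wf_eq, ← wf_eq, ← wf_eq, ← wf_eq]
  exact h1

theorem lab_spec {u : List ℕ} {e : Elt} (he : validB 7 127 80 e = true) (h : labChk u e = true) (i : Fin 6156) (y : Fin 80)
    (hy : lab i = some y) : lab (wp u i) = some (permOf 7 127 80 e y) := by
  have hi : labN i < 80 ∧ labN i = y := by
    unfold lab at hy
    split_ifs at hy with h1
    exact ⟨h1, congrArg Fin.val (Option.some.inj hy)⟩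
  have h1 := (allB_iff _ _).mp h i i.2
  have h2 : Nat.blt (labN i) 80 = true := by
    rw [Nat.blt_eq]
    exact hi.1
  rw [h2] at h1
  simp only [Bool.not_true, Bool.false_or, Bool.and_eq_true, Nat.beq_eq, Nat.blt_eq] at h1
  rw [wf_eq, hi.2] at h1
  unfold lab
  rw [dif_pos h1.2]
  congr 1
  apply Fin.ext
  rw [permOf_apply he]
  exact h1.1

theorem lab_surj (y : Fin 80) : ∃ i, lab i = some y := by
  have h1 := (allB_iff _ _).mp lab_surj_chk y y.2
  simp only [Bool.and_eq_true, Nat.blt_eq, Nat.beq_eq] at h1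
  refine ⟨⟨_, h1.1⟩, ?_⟩
  unfold lab
  have h2 : labN (get 13 8191 oT y) < 80 := by
    rw [h1.2]
    exact y.2
  rw [dif_pos h2]
  congr 1
  exact Fin.ext h1.2


end Cfsg.Agent.Lib.Compute.J3.CentChk
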