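import Mathlib
import Cfsg.Agent.Lib.Compute.J3.OutThm
import Cfsg.Agent.Lib.Compute.J3.CentSmall
import Cfsg.Agent.Lib.Compute.J3.CentLab
import Cfsg.Agent.Lib.Compute.J3.CentChk

/-!
# The centralizer of an involution of `J₃`
-/

set_option autoImplicit false
set_option maxRecDepth 100000
set_option linter.unusedSectionVars false

namespace Cfsg.Agent.Lib.Compute.J3.CentMain

open Cfsg Cfsg.Agent.Lib.Compute.PermCert Cfsg.Agent.Lib.Compute.BlockIso
open Cfsg.Agent.Lib.Compute.J3.Data Cfsg.Agent.Lib.Compute.J3.F4Mat Cfsg.Agent.Lib.Compute.J3.InvData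
open Cfsg.Agent.Lib.Compute.J3.Check Cfsg.Agent.Lib.Compute.J3.Main Cfsg.Agent.Lib.Compute.J3.PermPart
open Cfsg.Agent.Lib.Compute.J3.InvCheck Cfsg.Agent.Lib.Compute.J3.OutThm
open Cfsg.Agent.Lib.Compute.J3.CentSmall Cfsg.Agent.Lib.Compute.J3.CentLab Cfsg.Agent.Lib.Compute.J3.CentChk

/-! ### Transport -/

/-- The statement on a group. -/
def Target (G : Type*) [Group G] : Prop :=
  (∀ x y : G, orderOf x = 2 → orderOf y = 2 → IsConj x y) ∧
    ∃ t : G, orderOf t = 2 ∧ Shape ↥(Subgroup.centralizer ({t} : Set G))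

theorem Target.congr {G H : Type*} [Group G] [Group H] [Finite G] (e : G ≃* H) (h : Target G) : Target H := by
  obtain ⟨h1, t, ht, hs⟩ := h
  have hconj : ∀ a b : G, IsConj a b → IsConj (e a) (e b) := by
    intro a b hab
    obtain ⟨c, hc⟩ := isConj_iff.mp hab
    refine isConj_iff.mpr ⟨e c, ?_⟩
    rw [← hc, map_mul, map_mul, map_inv]
  refine ⟨fun x y hx hy => ?_, e t, ?_, ?_⟩
  · have h2 := h1 (e.symm x) (e.symm y) (by rw [MulEquiv.orderOf_eq]; exact hx) (by rw [MulEquiv.orderOf_eq]; exact hy)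
    have h3 := hconj _ _ h2
    simpa using h3
  · rw [MulEquiv.orderOf_eq]
    exact ht
  · have hmap : (Subgroup.centralizer ({t} : Set G)).map e.toMonoidHom = Subgroup.centralizer ({e t} : Set H) := by
      ext y
      rw [Subgroup.mem_centralizer_singleton_iff]
      constructor
      · rintro ⟨x, hx, rfl⟩
        rw [SetLike.mem_coe, Subgroup.mem_centralizer_singleton_iff] at hx
        show e x * e t = e t * e x
        rw [← map_mul, ← map_mul, hx]
      · intro hy
        refine ⟨e.symm y, ?_, e.apply_symm_apply y⟩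
        rw [SetLike.mem_coe, Subgroup.mem_centralizer_singleton_iff]
        apply e.injective
        rw [map_mul, map_mul, e.apply_symm_apply]
        exact hy
    exact Shape.congr ((e.subgroupMap _).trans (MulEquiv.subgroupCongr hmap)) hs

/-- The size of a conjugacy class is the index of the centralizer. -/
theorem carrier_card_index {G : Type*} [Group G] [Finite G] (g : G) :
    Nat.card (ConjClasses.mk g).carrier = (Subgroup.centralizer ({g} : Set G)).index := by
  have h1 := MulAction.index_stabilizer (ConjAct G) g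
  have h2 : (Subgroup.centralizer ({g} : Set G)) =
      (MulAction.stabilizer (ConjAct G) g).comap (ConjAct.toConjAct (G := G)).toMonoidHom := by
    ext y
    rw [Subgroup.mem_comap, MulAction.mem_stabilizer_iff, Subgroup.mem_centralizer_iff]
    simp only [Set.mem_singleton_iff, forall_eq]
    show g * y = y * g ↔ ConjAct.toConjAct y • g = g
    rw [ConjAct.toConjAct_smul, mul_inv_eq_iff_eq_mul, eq_comm]
  rw [h2, Subgroup.index_comap_of_surjective _ (ConjAct.toConjAct (G := G)).surjective, h1,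
    ConjAct.orbit_eq_carrier_conjClasses]
  rfl

/-! ### The setup -/

section Assemble

variable {Γ A : Type*} [Group Γ] [Monoid A] [Finite Γ] (S : Setup Γ A)

theorem v_gAi : S.v S.gA⁻¹ = S.d cAi := by
  have h1 : S.v S.gA⁻¹ * S.v S.gA = 1 := by rw [← map_mul, inv_mul_cancel, map_one]
  have h2 : S.d cA * S.d cAi = 1 := by rw [← S.hmm, cA_inv.1, S.hone]
  calc S.v S.gA⁻¹ = S.v S.gA⁻¹ * (S.d cA * S.d cAi) := by rw [h2, mul_one]
    _ = S.d cAi := by rw [← S.hgA, ← mul_assoc, h1, one_mul]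

theorem v_gBi : S.v S.gB⁻¹ = S.d cBi := by
  have h1 : S.v S.gB⁻¹ * S.v S.gB = 1 := by rw [← map_mul, inv_mul_cancel, map_one]
  have h2 : S.d cB * S.d cBi = 1 := by rw [← S.hmm, cB_inv.1, S.hone]
  calc S.v S.gB⁻¹ = S.v S.gB⁻¹ * (S.d cB * S.d cBi) := by rw [h2, mul_one]
    _ = S.d cBi := by rw [← S.hgB, ← mul_assoc, h1, one_mul]

theorem exists_rho : ∃ ρ : S.M →* P, Function.Surjective ρ ∧ ρ.ker = Subgroup.center S.M ∧
    (ρ ⟨S.gA, gA_mem⟩ : Equiv.Perm (Fin 6156)) = permOf 13 8191 6156 eA ∧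
    (ρ ⟨S.gB, gB_mem⟩ : Equiv.Perm (Fin 6156)) = permOf 13 8191 6156 eB := by
  obtain ⟨L, hLM, hLc, hT1, hT2⟩ := chain_exists S
  obtain ⟨hMc, hLc'⟩ := orders hLM hLc hT1 hT2
  obtain ⟨ρ, h1, h2, -⟩ := rho_exists hLM hLc' hMc hT1 hT2
  have hrange := range_rho ρ h1 h2
  obtain ⟨hcen3, -, -, -, hcardP⟩ := main S
  let ρ' : S.M →* P := ρ.codRestrict P (fun x => by
    rw [← hrange]
    exact ⟨x, rfl⟩)
  have hsurj : Function.Surjective ρ' := by
    rintro ⟨y, hy⟩
    rw [← hrange] at hy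
    obtain ⟨x, hx⟩ := hy
    exact ⟨x, Subtype.ext hx⟩
  refine ⟨ρ', hsurj, ?_, h1, h2⟩
  have hle : Subgroup.center S.M ≤ ρ'.ker := by
    intro z hz
    rw [MonoidHom.mem_ker]
    have h3 : ρ' z ∈ Subgroup.center P := by
      rw [Subgroup.mem_center_iff]
      intro g
      obtain ⟨g', rfl⟩ := hsurj g
      rw [← map_mul, ← map_mul, (Subgroup.mem_center_iff.mp hz g')]
    rw [P_center hcardP, Subgroup.mem_bot] at h3
    exact h3
  have hker : Nat.card ρ'.ker = 3 := by
    have h3 := Subgroup.card_mul_index ρ'.ker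
    rw [Subgroup.index_ker, MonoidHom.range_eq_top.mpr hsurj, hMc] at h3
    have h4 : Nat.card (⊤ : Subgroup P) = 50232960 := by
      rw [Subgroup.card_top, hcardP]
    rw [h4] at h3
    omega
  exact (Subgroup.eq_of_le_of_card_ge hle (by rw [hker, hcen3])).symm

variable {S}

theorem exists_word {ρ : S.M →* P} (hA : (ρ ⟨S.gA, gA_mem⟩ : Equiv.Perm (Fin 6156)) = permOf 13 8191 6156 eA)
    (hB : (ρ ⟨S.gB, gB_mem⟩ : Equiv.Perm (Fin 6156)) = permOf 13 8191 6156 eB) (u : List ℕ) (hu : ∀ l ∈ u, l < 4) :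
    ∃ x : S.M, S.v x.1 = S.d (wcode u) ∧ (ρ x : Equiv.Perm (Fin 6156)) = wp u := by
  induction u with
  | nil =>
    refine ⟨1, ?_, ?_⟩
    · show S.v 1 = S.d oneC
      rw [map_one, S.hone]
    · rw [map_one]
      rfl
  | cons l u ih =>
    obtain ⟨x, hx1, hx2⟩ := ih (fun k hk => hu k (List.mem_cons_of_mem _ hk))
    have hl := hu l List.mem_cons_self
    have hstep : ∀ g : S.M, S.v g.1 = S.d (lt0 l) → (ρ g : Equiv.Perm (Fin 6156)) = letterPerm 13 8191 6156 gens l →
        ∃ x : S.M, S.v x.1 = S.d (wcode (l :: u)) ∧ (ρ x : Equiv.Perm (Fin 6156)) = wp (l :: u) := by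
      intro g hg1 hg2
      refine ⟨g * x, ?_, ?_⟩
      · show S.v (g.1 * x.1) = S.d (mm (lt0 l) (wcode u))
        rw [map_mul, hg1, hx1, S.hmm]
      · rw [map_mul]
        show (ρ g : Equiv.Perm (Fin 6156)) * (ρ x : Equiv.Perm (Fin 6156)) = letterPerm 13 8191 6156 gens l * wp u
        rw [hg2, hx2]
    interval_cases l
    · exact hstep ⟨S.gA, gA_mem⟩ S.hgA hA
    · refine hstep (⟨S.gA, gA_mem⟩)⁻¹ (v_gAi S) ?_
      rw [map_inv]
      show ((ρ ⟨S.gA, gA_mem⟩ : P) : Equiv.Perm (Fin 6156))⁻¹ = _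
      rw [hA]
      rfl
    · exact hstep ⟨S.gB, gB_mem⟩ S.hgB hB
    · refine hstep (⟨S.gB, gB_mem⟩)⁻¹ (v_gBi S) ?_
      rw [map_inv]
      show ((ρ ⟨S.gB, gB_mem⟩ : P) : Equiv.Perm (Fin 6156))⁻¹ = _
      rw [hB]
      rfl

theorem conj_root (i : ℕ) (hi : i < NI) :
    ∃ g : S.M, S.v g.1 * S.d (invC rootI) = S.d (invC i) * S.v g.1 := by
  have key : ∀ m i, tDep i = m → i < NI → ∃ g : S.M, S.v g.1 * S.d (invC rootI) = S.d (invC i) * S.v g.1 := by
    intro m
    induction m using Nat.strong_induction_on with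
    | _ m ih =>
      intro i hd hi
      have ht := (allB_iff _ _).mp tree_ok i hi
      simp only [treeOK, Bool.or_eq_true, Bool.and_eq_true, Nat.beq_eq, Nat.blt_eq] at ht
      rcases ht with rfl | ⟨⟨hp, hdp⟩, h⟩
      · exact ⟨1, by
          show S.v 1 * _ = _ * S.v 1
          rw [map_one, one_mul, mul_one]⟩
      · obtain ⟨g, hg⟩ := ih _ (hd ▸ hdp) _ rfl hp
        obtain ⟨-, -, h3, h4, -⟩ := line_spec hp
        rcases h with ⟨-, h⟩ | ⟨-, h⟩
        · refine ⟨⟨S.gA, gA_mem⟩ * g, ?_⟩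
          show S.v (S.gA * g.1) * _ = _ * S.v (S.gA * g.1)
          rw [h] at h3
          rw [map_mul, mul_assoc, hg, ← mul_assoc, S.hgA, ← S.hmm, h3, S.hmm, mul_assoc]
        · refine ⟨⟨S.gB, gB_mem⟩ * g, ?_⟩
          show S.v (S.gB * g.1) * _ = _ * S.v (S.gB * g.1)
          rw [h] at h4
          rw [map_mul, mul_assoc, hg, ← mul_assoc, S.hgB, ← S.hmm, h4, S.hmm, mul_assoc]
  exact key _ i rfl hi

theorem target_P (S : Setup Γ A) : Target ↥P := by
  classical
  obtain ⟨ρ, hsurj, hker, hA, hB⟩ := exists_rho S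
  obtain ⟨y, hy1, hy2⟩ := exists_word hA hB wt wt_letters
  rw [wt_code] at hy1
  obtain ⟨hcen3, hMc, -, -, hcardP⟩ := main S
  have hysq : y ^ 2 = 1 := by
    apply Subtype.ext
    apply S.hv
    have e0 : (y ^ 2 : S.M).1 = y.1 * y.1 := by rw [Subgroup.coe_pow, pow_two]
    rw [e0, map_mul, hy1, ← S.hmm, i0_sq, S.hone, Subgroup.coe_one, map_one]
  have hconj : ∀ i, i < NI → ∃ x : S.M, S.v x.1 = S.d (invC i) ∧ IsConj y x := by
    intro i hi
    obtain ⟨g0, hg0⟩ := conj_root (S := S) i0 i0_lt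
    obtain ⟨g1, hg1⟩ := conj_root (S := S) i hi
    refine ⟨(g1 * g0⁻¹) * y * (g1 * g0⁻¹)⁻¹, ?_, isConj_iff.mpr ⟨_, rfl⟩⟩
    have e1 : S.v (g0⁻¹).1 * S.v g0.1 = 1 := by
      rw [← map_mul]
      show S.v (g0.1⁻¹ * g0.1) = 1
      rw [inv_mul_cancel, map_one]
    have e2 : S.v g1.1 * S.v (g1⁻¹).1 = 1 := by
      rw [← map_mul]
      show S.v (g1.1 * g1.1⁻¹) = 1
      rw [mul_inv_cancel, map_one]
    have e3 : ((g1 * g0⁻¹) * y * (g1 * g0⁻¹)⁻¹ : S.M).1 = g1.1 * (g0⁻¹).1 * y.1 * g0.1 * (g1⁻¹).1 := by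
      show g1.1 * g0.1⁻¹ * y.1 * (g1.1 * g0.1⁻¹)⁻¹ = g1.1 * g0.1⁻¹ * y.1 * g0.1 * g1.1⁻¹
      group
    rw [e3, map_mul, map_mul, map_mul, map_mul, hy1]
    calc S.v g1.1 * S.v (g0⁻¹).1 * S.d (invC i0) * S.v g0.1 * S.v (g1⁻¹).1
        = S.v g1.1 * (S.v (g0⁻¹).1 * (S.d (invC i0) * S.v g0.1)) * S.v (g1⁻¹).1 := by
          simp only [mul_assoc]
      _ = S.v g1.1 * (S.v (g0⁻¹).1 * (S.v g0.1 * S.d (invC rootI))) * S.v (g1⁻¹).1 := by rw [hg0]
      _ = S.v g1.1 * ((S.v (g0⁻¹).1 * S.v g0.1) * S.d (invC rootI)) * S.v (g1⁻¹).1 := by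
          simp only [mul_assoc]
      _ = (S.v g1.1 * S.d (invC rootI)) * S.v (g1⁻¹).1 := by rw [e1, one_mul]
      _ = S.d (invC i) * (S.v g1.1 * S.v (g1⁻¹).1) := by rw [hg1, mul_assoc]
      _ = S.d (invC i) := by rw [e2, mul_one]
  have hall : ∀ x : P, orderOf x = 2 → IsConj (ρ y) x := by
    intro x hx
    obtain ⟨x', rfl⟩ := hsurj x
    have hx2 : (ρ x') ^ 2 = 1 := by
      rw [← hx]
      exact pow_orderOf_eq_one _
    have hz : x' ^ 2 ∈ Subgroup.center S.M := by
      rw [← hker, MonoidHom.mem_ker, map_pow]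
      exact hx2
    have h3 : (x' ^ 2) ^ 3 = 1 := center_cube hz
    have hw2 : (x' ^ 3) ^ 2 = 1 := by
      rw [← pow_mul, mul_comm, pow_mul]
      exact h3
    have hρw : ρ (x' ^ 3) = ρ x' := by
      rw [map_pow, pow_succ, hx2, one_mul]
    have hne : x' ^ 3 ≠ 1 := by
      intro h
      rw [h, map_one] at hρw
      rw [← hρw, orderOf_one] at hx
      norm_num at hx
    obtain ⟨i, hi, e⟩ := inv_list (S := S) (w := (x' ^ 3 : S.M).1) (x' ^ 3 : S.M).2 (congrArg Subtype.val hw2)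
      (fun h => hne (Subtype.ext h))
    obtain ⟨x2, h5, h6⟩ := hconj i hi
    have h7 : x2 = x' ^ 3 := Subtype.ext (S.hv (h5.trans e.symm))
    rw [h7] at h6
    obtain ⟨c, hc⟩ := isConj_iff.mp h6
    refine isConj_iff.mpr ⟨ρ c, ?_⟩
    rw [← hρw, ← hc, map_mul, map_mul, map_inv]
  -- the order of the element
  have htsq : (ρ y) ^ 2 = 1 := by rw [← map_pow, hysq, map_one]
  have htne : ρ y ≠ 1 := by
    intro h
    obtain ⟨i, hi, hne⟩ := wt_ne
    apply hne
    have h1 : wp wt = 1 := by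
      rw [← hy2, h]
      rfl
    have h2 := wf_eq wt ⟨i, hi⟩
    rw [h1] at h2
    exact h2
  have hord : orderOf (ρ y) = 2 := by
    have : Fact (Nat.Prime 2) := ⟨Nat.prime_two⟩
    exact orderOf_eq_prime htsq htne
  refine ⟨fun a b ha hb => (hall a ha).symm.trans (hall b hb), ρ y, hord, ?_⟩
  -- the bound on the order of the centralizer
  have hZ : Nat.card (Subgroup.centralizer ({ρ y} : Set P)) ≤ 1920 := by
    choose! x hx1 hx2 using hconj
    have hmem : ∀ i : Fin NI, ρ (x i) ∈ (ConjClasses.mk (ρ y)).carrier := by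
      intro i
      rw [ConjClasses.mem_carrier_iff_mk_eq, ConjClasses.mk_eq_mk_iff_isConj]
      have h1 := hx2 i i.2
      obtain ⟨c, hc⟩ := isConj_iff.mp h1
      exact (isConj_iff.mpr ⟨ρ c, by rw [← hc, map_mul, map_mul, map_inv]⟩).symm
    have hsq : ∀ i : Fin NI, (x i) ^ 2 = 1 := by
      intro i
      obtain ⟨c, hc⟩ := isConj_iff.mp (hx2 i i.2)
      rw [← hc, conj_pow, hysq, mul_one, mul_inv_cancel]
    let Fn : Fin NI → (ConjClasses.mk (ρ y)).carrier := fun i => ⟨ρ (x i), hmem i⟩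
    have hFn : Function.Injective Fn := by
      intro i j hij
      have h1 : ρ (x i) = ρ (x j) := congrArg Subtype.val hij
      have hz : (x j)⁻¹ * x i ∈ Subgroup.center S.M := by
        rw [← hker, MonoidHom.mem_ker, map_mul, map_inv, h1, inv_mul_cancel]
      set z := (x j)⁻¹ * x i with hzdef
      have h2 : x i = x j * z := by rw [hzdef]; group
      have hcz : Commute (x j) z := (Subgroup.mem_center_iff.mp hz (x j))
      have h3 : z ^ 2 = 1 := by
        have h4 := hsq i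
        rw [h2, hcz.mul_pow, hsq j, one_mul] at h4
        exact h4
      have h5 : z = 1 := by
        have h6 := center_cube hz
        rw [pow_succ, h3, one_mul] at h6
        exact h6
      have h7 : x i = x j := by rw [h2, h5, mul_one]
      have h8 : S.d (invC i) = S.d (invC j) := by
        rw [← hx1 i i.2, ← hx1 j j.2, h7]
      exact Fin.ext (invC_inj i.2 j.2 (S.hinj _ _ (invC_lt _) (invC_lt _) h8))
    have h1 : NI ≤ Nat.card (ConjClasses.mk (ρ y)).carrier := by
      have h2 := Nat.card_le_card_of_injective Fn hFn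
      simpa using h2
    rw [carrier_card_index] at h1
    have h2 := Subgroup.card_mul_index (Subgroup.centralizer ({ρ y} : Set P))
    rw [hcardP] at h2
    have h3 : Nat.card (Subgroup.centralizer ({ρ y} : Set P)) * 26163 ≤
        Nat.card (Subgroup.centralizer ({ρ y} : Set P)) * (Subgroup.centralizer ({ρ y} : Set P)).index :=
      Nat.mul_le_mul_left _ h1
    omega
  -- the generators
  let X1 : P := ⟨wp w1, wordPerm_mem _ _⟩
  let X2 : P := ⟨wp w2, wordPerm_mem _ _⟩
  have hX1 : X1 ∈ Subgroup.centralizer ({ρ y} : Set P) := by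
    rw [Subgroup.mem_centralizer_singleton_iff]
    apply Subtype.ext
    show wp w1 * (ρ y : Equiv.Perm (Fin 6156)) = (ρ y : Equiv.Perm (Fin 6156)) * wp w1
    rw [hy2]
    exact comm_of_chk comm_wt_w1
  have hX2 : X2 ∈ Subgroup.centralizer ({ρ y} : Set P) := by
    rw [Subgroup.mem_centralizer_singleton_iff]
    apply Subtype.ext
    show wp w2 * (ρ y : Equiv.Perm (Fin 6156)) = (ρ y : Equiv.Perm (Fin 6156)) * wp w2
    rw [hy2]
    exact comm_of_chk comm_wt_w2
  have hle : Subgroup.closure {X1, X2} ≤ Subgroup.centralizer ({ρ y} : Set P) := by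
    rw [Subgroup.closure_le]
    rintro _ (rfl | h)
    · exact hX1
    · rw [Set.mem_singleton_iff] at h
      rw [h]
      exact hX2
  obtain ⟨ψ, hψ⟩ := range_of_label P.subtype lab lab_surj {X1, X2} {CentSmall.p1, CentSmall.p2}
    (by
      rintro a (rfl | h)
      · exact ⟨CentSmall.p1, Or.inl rfl, fun i y hy => lab_spec valid_e1 lab_w1 i y hy⟩
      · rw [Set.mem_singleton_iff] at h
        subst h
        exact ⟨CentSmall.p2, Or.inr rfl, fun i y hy => lab_spec valid_e2 lab_w2 i y hy⟩)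
    (by
      rintro p (rfl | h)
      · exact ⟨X1, Or.inl rfl, fun i y hy => lab_spec valid_e1 lab_w1 i y hy⟩
      · rw [Set.mem_singleton_iff] at h
        subst h
        exact ⟨X2, Or.inr rfl, fun i y hy => lab_spec valid_e2 lab_w2 i y hy⟩)
  have hcardE : 1920 ≤ Nat.card (Subgroup.closure {X1, X2} : Subgroup P) := by
    have h1 : Nat.card ψ.range ≤ Nat.card (Subgroup.closure {X1, X2} : Subgroup P) :=
      Nat.card_le_card_of_surjective ψ.rangeRestrict ψ.rangeRestrict_surjective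
    rw [hψ, card_CC] at h1
    exact h1
  have hEZ : (Subgroup.closure {X1, X2} : Subgroup P) = Subgroup.centralizer ({ρ y} : Set P) :=
    Subgroup.eq_of_le_of_card_ge hle (hZ.trans hcardE)
  have hcardE2 : Nat.card (Subgroup.closure {X1, X2} : Subgroup P) = Nat.card CC := by
    rw [card_CC]
    apply le_antisymm _ hcardE
    rw [hEZ]
    exact hZ
  obtain ⟨eE⟩ := equiv_of_range ψ CC (le_of_eq hψ.symm) hcardE2
  exact Shape.congr (eE.symm.trans (MulEquiv.subgroupCongr hEZ)) shape_CC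

/-- The statement on the central quotient. -/
theorem target_main (S : Setup Γ A) : Target (S.M ⧸ Subgroup.center S.M) := by
  obtain ⟨ρ, hsurj, hker, -, -⟩ := exists_rho S
  have e1 : S.M ⧸ Subgroup.center S.M ≃* P :=
    (QuotientGroup.quotientMulEquivOfEq hker.symm).trans (QuotientGroup.quotientKerEquivOfSurjective ρ hsurj)
  exact Target.congr e1.symm (target_P S)

end Assemble

end Cfsg.Agent.Lib.Compute.J3.CentMain
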